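import Mathlib

/-!
# 2-elements of `A₁₁`

Every element of 2-power order of `A₁₁` is conjugate in `A₁₁` to one of seven explicit permutations.
-/

set_option autoImplicit false

namespace Cfsg.Agent.H61.EB

open Equiv Equiv.Perm

/-- the permutations of the points -/
abbrev P11 := Perm (Fin 11)

/-- type `2²` -/
def s22 : P11 := swap 0 1 * swap 2 3
/-- type `2⁴` -/
def s24 : P11 := swap 0 1 * swap 2 3 * (swap 4 5 * swap 6 7)
/-- a four-cycle -/
def c4 : P11 := swap 0 1 * swap 1 2 * swap 2 3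
/-- another four-cycle -/
def d4 : P11 := swap 4 5 * swap 5 6 * swap 6 7
/-- an eight-cycle -/
def c8 : P11 := swap 0 1 * swap 1 2 * swap 2 3 * swap 3 4 * swap 4 5 * swap 5 6 * swap 6 7
/-- type `4.2` -/
def s42 : P11 := c4 * swap 4 5
/-- type `4.2³` -/
def s423 : P11 := c4 * swap 8 9 * (swap 4 5 * swap 6 7)
/-- type `4²` -/
def s44 : P11 := c4 * d4
/-- type `8.2` -/
def s82 : P11 := c8 * swap 8 9

/-- A multiset of `2`, `4`, `8`. -/
theorem eq_replicate {s : Multiset ℕ} (h : ∀ n ∈ s, n = 2 ∨ n = 4 ∨ n = 8) :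
    s = Multiset.replicate (s.count 2) 2 + Multiset.replicate (s.count 4) 4 + Multiset.replicate (s.count 8) 8 := by
  ext n
  rw [Multiset.count_add, Multiset.count_add, Multiset.count_replicate, Multiset.count_replicate,
    Multiset.count_replicate]
  by_cases hn : n ∈ s
  · rcases h n hn with rfl | rfl | rfl <;> simp
  · have h0 : s.count n = 0 := Multiset.count_eq_zero.2 hn
    rw [h0]
    split_ifs with h1 h2 h3 h3 h2 h3 h3 <;> first | omega | (subst_vars; omega)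

/-- The cycle types of the elements of 2-power order of `A₁₁`. -/
theorem cycleType_cases {σ : P11} (hσ : σ ∈ alternatingGroup (Fin 11)) {j : ℕ} (h : σ ^ 2 ^ j = 1) :
    σ.cycleType = 0 ∨ σ.cycleType = {2, 2} ∨ σ.cycleType = {2, 2, 2, 2} ∨ σ.cycleType = {4, 2} ∨
      σ.cycleType = {4, 2, 2, 2} ∨ σ.cycleType = {4, 4} ∨ σ.cycleType = {8, 2} := by
  have hel : ∀ n ∈ σ.cycleType, n = 2 ∨ n = 4 ∨ n = 8 := by
    intro n hn
    have h1 := two_le_of_mem_cycleType hn
    have h2 : n ∣ 2 ^ j := (dvd_of_mem_cycleType hn).trans (orderOf_dvd_of_pow_eq_one h)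
    have h3 : n ≤ 11 := (le_card_support_of_mem_cycleType hn).trans
      ((Finset.card_le_univ _).trans (by rw [Fintype.card_fin]))
    obtain ⟨i, -, rfl⟩ := (Nat.dvd_prime_pow Nat.prime_two).1 h2
    have h4 : i < 4 := by
      by_contra h4
      push Not at h4
      have := Nat.pow_le_pow_right (show 0 < 2 by norm_num) h4
      omega
    interval_cases i
    · omega
    · left; norm_num
    · right; left; norm_num
    · right; right; norm_num
  have h1 := eq_replicate hel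
  have hsum : σ.cycleType.sum ≤ 11 := by
    rw [sum_cycleType]
    exact (Finset.card_le_univ _).trans (by rw [Fintype.card_fin])
  have hsign := sign_of_cycleType σ
  rw [mem_alternatingGroup.1 hσ] at hsign
  have hev : Even (σ.cycleType.sum + Multiset.card σ.cycleType) := by
    by_contra hodd
    rw [Nat.not_even_iff_odd] at hodd
    rw [Odd.neg_one_pow hodd] at hsign
    exact absurd hsign (by decide)
  obtain ⟨a, ha⟩ : ∃ a, σ.cycleType.count 2 = a := ⟨_, rfl⟩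
  obtain ⟨b, hb⟩ : ∃ b, σ.cycleType.count 4 = b := ⟨_, rfl⟩
  obtain ⟨c, hc⟩ : ∃ c, σ.cycleType.count 8 = c := ⟨_, rfl⟩
  rw [ha, hb, hc] at h1
  have hs2 : σ.cycleType.sum = 2 * a + 4 * b + 8 * c := by
    rw [h1, Multiset.sum_add, Multiset.sum_add, Multiset.sum_replicate, Multiset.sum_replicate,
      Multiset.sum_replicate, smul_eq_mul, smul_eq_mul, smul_eq_mul]
    ring
  have hs3 : Multiset.card σ.cycleType = a + b + c := by
    rw [h1, Multiset.card_add, Multiset.card_add, Multiset.card_replicate, Multiset.card_replicate,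
      Multiset.card_replicate]
  rw [hs2] at hsum hev
  rw [hs3] at hev
  obtain ⟨m, hm⟩ := hev
  have key : (a = 0 ∧ b = 0 ∧ c = 0) ∨ (a = 2 ∧ b = 0 ∧ c = 0) ∨ (a = 4 ∧ b = 0 ∧ c = 0) ∨
      (a = 1 ∧ b = 1 ∧ c = 0) ∨ (a = 3 ∧ b = 1 ∧ c = 0) ∨ (a = 0 ∧ b = 2 ∧ c = 0) ∨
      (a = 1 ∧ b = 0 ∧ c = 1) := by
    clear h1 hs2 hs3 ha hb hc hsign hel
    have ha5 : a ≤ 5 := by omega
    have hb2 : b ≤ 2 := by omega
    have hc1 : c ≤ 1 := by omega
    interval_cases c <;> interval_cases b <;> interval_cases a <;> first | omega | simp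
  rcases key with ⟨rfl, rfl, rfl⟩ | ⟨rfl, rfl, rfl⟩ | ⟨rfl, rfl, rfl⟩ | ⟨rfl, rfl, rfl⟩ | ⟨rfl, rfl, rfl⟩ |
    ⟨rfl, rfl, rfl⟩ | ⟨rfl, rfl, rfl⟩ <;> rw [h1] <;> decide

/-- Conjugacy in `A₁₁` to a fixed permutation commuting with an odd one. -/
theorem exists_even_conj {σ τ ρ : P11} (h : σ.cycleType = τ.cycleType) (hρ : sign ρ = -1) (hc : ρ * τ = τ * ρ) :
    ∃ g ∈ alternatingGroup (Fin 11), g * σ * g⁻¹ = τ := by
  obtain ⟨g, hg⟩ := isConj_iff.1 (isConj_iff_cycleType_eq.2 h)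
  rcases Int.units_eq_one_or (sign g) with h1 | h1
  · exact ⟨g, mem_alternatingGroup.2 h1, hg⟩
  · refine ⟨ρ * g, ?_, ?_⟩
    · rw [mem_alternatingGroup, map_mul, h1, hρ]
      decide
    · calc ρ * g * σ * (ρ * g)⁻¹ = ρ * (g * σ * g⁻¹) * ρ⁻¹ := by group
        _ = τ := by rw [hg, hc, mul_inv_cancel_right]

/-- **2-elements of `A₁₁`.** -/
theorem exists_conj_cases {σ : P11} (hσ : σ ∈ alternatingGroup (Fin 11)) {j : ℕ} (h : σ ^ 2 ^ j = 1) :
    ∃ g ∈ alternatingGroup (Fin 11), g * σ * g⁻¹ = 1 ∨ g * σ * g⁻¹ = s22 ∨ g * σ * g⁻¹ = s24 ∨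
      g * σ * g⁻¹ = s42 ∨ g * σ * g⁻¹ = s423 ∨ g * σ * g⁻¹ = s44 ∨ g * σ * g⁻¹ = s82 := by
  rcases cycleType_cases hσ h with h | h | h | h | h | h | h
  · exact ⟨1, one_mem _, Or.inl (by rw [cycleType_eq_zero.1 h]; group)⟩
  · obtain ⟨g, hg, hg2⟩ := exists_even_conj (τ := s22) (ρ := swap 0 1)
      (h.trans (by decide +kernel)) (by decide +kernel) (by decide +kernel)
    exact ⟨g, hg, Or.inr (Or.inl hg2)⟩
  · obtain ⟨g, hg, hg2⟩ := exists_even_conj (τ := s24) (ρ := swap 0 1)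
      (h.trans (by decide +kernel)) (by decide +kernel) (by decide +kernel)
    exact ⟨g, hg, Or.inr (Or.inr (Or.inl hg2))⟩
  · obtain ⟨g, hg, hg2⟩ := exists_even_conj (τ := s42) (ρ := swap 4 5)
      (h.trans (by decide +kernel)) (by decide +kernel) (by decide +kernel)
    exact ⟨g, hg, Or.inr (Or.inr (Or.inr (Or.inl hg2)))⟩
  · obtain ⟨g, hg, hg2⟩ := exists_even_conj (τ := s423) (ρ := swap 4 5)
      (h.trans (by decide +kernel)) (by decide +kernel) (by decide +kernel)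
    exact ⟨g, hg, Or.inr (Or.inr (Or.inr (Or.inr (Or.inl hg2))))⟩
  · obtain ⟨g, hg, hg2⟩ := exists_even_conj (τ := s44) (ρ := c4)
      (h.trans (by decide +kernel)) (by decide +kernel) (by decide +kernel)
    exact ⟨g, hg, Or.inr (Or.inr (Or.inr (Or.inr (Or.inr (Or.inl hg2)))))⟩
  · obtain ⟨g, hg, hg2⟩ := exists_even_conj (τ := s82) (ρ := swap 8 9)
      (h.trans (by decide +kernel)) (by decide +kernel) (by decide +kernel)
    exact ⟨g, hg, Or.inr (Or.inr (Or.inr (Or.inr (Or.inr (Or.inr hg2)))))⟩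

end Cfsg.Agent.H61.EB
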