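import Cfsg.Agent.TypeM.FactsLy
import Cfsg.Agent.H61.EB.Types

/-!
# Groups with one class of involutions and involution centralizer `2.A₁₁`: five classes of 2-elements

(S4522, row Ly.)
-/

set_option autoImplicit false

namespace Cfsg.Agent.H61.EB

open Equiv Subgroup Cfsg.Agent.SporRec.TwoAn Cfsg.Agent.TypeM.Two

section cover

variable {C : Type*} [Group C] (K : Cover (Fin 11) C)

theorem pow_four {M : Type*} [Monoid M] (g : M) : g ^ 4 = g * g * (g * g) := by
  rw [show 4 = 2 + 2 from rfl, pow_add, pow_two]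

/-- `g ~ g z` for a lift of type `4.2` -/
theorem conj_s42 {g : C} (hg : K.π g = s42) : ∃ w, w * g * w⁻¹ = g * K.z := by
  obtain ⟨r, hr⟩ := K.exists_lift (Cover.swap_mul_swap_mem 4 5 6 7 (by decide) (by decide))
  obtain ⟨u, hu⟩ := K.exists_lift (Cover.swap_mul_swap_mem 0 1 1 2 (by decide) (by decide))
  have hv : K.π (u⁻¹ * g) = swap 2 3 * swap 4 5 := by
    rw [map_mul, map_inv, hu, hg]
    decide +kernel
  have h1 : (u⁻¹ * g) * (u⁻¹ * g) = K.z := K.dbl 2 3 4 5 (by decide) (by decide) (by decide) (by decide) (by decide)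
    (by decide) _ hv
  have h2 : r * r = K.z := K.dbl 4 5 6 7 (by decide) (by decide) (by decide) (by decide) (by decide)
    (by decide) _ hr
  have h3 : (u⁻¹ * g * r) * (u⁻¹ * g * r) = K.z := K.dbl 2 3 6 7 (by decide) (by decide) (by decide) (by decide)
    (by decide) (by decide) _ (by rw [map_mul, hv, hr]; decide +kernel)
  have h4 : u * r = r * u := K.commute_of_disjoint (by rw [hu, hr]; unfold Perm.Disjoint; decide +kernel)
  set v := u⁻¹ * g with hvdef
  have hgv : g = u * v := by rw [hvdef]; group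
  have hz := K.z_mul_z
  have hrinv : r⁻¹ = r * K.z := by rw [inv_eq_iff_mul_eq_one, ← mul_assoc, h2, hz]
  have hvinv : v⁻¹ = v * K.z := by rw [inv_eq_iff_mul_eq_one, ← mul_assoc, h1, hz]
  have h5 : r * v = v * r * K.z := by
    have h6 : r * v = v⁻¹ * ((v * r) * (v * r)) * r⁻¹ := by group
    rw [h6, h3, hvinv, hrinv]
    calc v * K.z * K.z * (r * K.z) = v * (K.z * K.z) * (r * K.z) := by group
      _ = v * r * K.z := by rw [hz]; group
  refine ⟨r, ?_⟩
  rw [hgv]
  calc r * (u * v) * r⁻¹ = (r * u) * v * r⁻¹ := by group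
    _ = (u * r) * v * r⁻¹ := by rw [h4]
    _ = u * (r * v) * r⁻¹ := by group
    _ = u * (v * r * K.z) * r⁻¹ := by rw [h5]
    _ = u * v * (r * K.z) * r⁻¹ := by group
    _ = u * v * (K.z * r) * r⁻¹ := by rw [K.z_comm r]
    _ = u * v * K.z := by group

/-- `g ~ g z` for a lift of type `4.2³` -/
theorem conj_s423 {g : C} (hg : K.π g = s423) : ∃ w, w * g * w⁻¹ = g * K.z := by
  obtain ⟨v, hv⟩ := K.exists_lift (Cover.swap_mul_swap_mem 4 5 6 7 (by decide) (by decide))
  obtain ⟨r, hr⟩ := K.exists_lift (Cover.swap_mul_swap_mem 4 6 5 7 (by decide) (by decide))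
  have hu : K.π (g * v⁻¹) = c4 * swap 8 9 := by
    rw [map_mul, map_inv, hv, hg]
    decide +kernel
  have h4 : g * v⁻¹ * r = r * (g * v⁻¹) := K.commute_of_disjoint (by rw [hu, hr]; unfold Perm.Disjoint; decide +kernel)
  have h5 : r * v = v * r * K.z := K.anticomm (by decide) (by decide) (by decide) (by decide) (by decide) (by decide)
    hv hr
  refine ⟨r, ?_⟩
  calc r * g * r⁻¹ = (r * (g * v⁻¹)) * v * r⁻¹ := by group
    _ = g * v⁻¹ * r * v * r⁻¹ := by rw [← h4]
    _ = g * v⁻¹ * (r * v) * r⁻¹ := by group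
    _ = g * v⁻¹ * (v * r * K.z) * r⁻¹ := by rw [h5]
    _ = g * (r * K.z) * r⁻¹ := by group
    _ = g * (K.z * r) * r⁻¹ := by rw [K.z_comm r]
    _ = g * K.z := by group

/-- Lifts of the same permutation are conjugate as soon as one is conjugate to its product with `z`. -/
theorem conj_of_lift {g h : C} (hgh : K.π g = K.π h) (hz : ∃ w, w * g * w⁻¹ = g * K.z) : IsConj g h := by
  rcases K.lift_eq hgh.symm with h1 | h1
  · rw [h1]
  · obtain ⟨w, hw⟩ := hz
    rw [h1]
    exact isConj_iff.2 ⟨w, hw⟩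

theorem pow_s42 {g : C} (hg : K.π g = s42) : g ^ 4 = K.z := by
  have h1 : K.π (g * g) = swap 0 2 * swap 1 3 := by
    rw [map_mul, hg]
    decide +kernel
  have h2 := K.dbl 0 2 1 3 (by decide) (by decide) (by decide) (by decide) (by decide) (by decide) _ h1
  rw [← h2, pow_four]

theorem pow_s423 {g : C} (hg : K.π g = s423) : g ^ 4 = K.z := by
  have h1 : K.π (g * g) = swap 0 2 * swap 1 3 := by
    rw [map_mul, hg]
    decide +kernel
  have h2 := K.dbl 0 2 1 3 (by decide) (by decide) (by decide) (by decide) (by decide) (by decide) _ h1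
  rw [← h2, pow_four]

theorem pow_s22 {g : C} (hg : K.π g = s22) : g ^ 2 = K.z := by
  rw [pow_two]
  exact K.dbl 0 1 2 3 (by decide) (by decide) (by decide) (by decide) (by decide) (by decide) _ hg

/-- If `g` has the order of its image, `z` is not a power of `g`. -/
theorem not_mem_of_pow {g : C} {n : ℕ} (hn : orderOf (K.π g) = n) (hg : g ^ n = 1) : K.z ∉ zpowers g := by
  intro h
  obtain ⟨k, hk⟩ := mem_zpowers_iff.1 h
  have h1 : (K.π g) ^ k = 1 := by rw [← map_zpow, hk, K.π_z]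
  rw [← orderOf_dvd_iff_zpow_eq_one, hn] at h1
  obtain ⟨m, rfl⟩ := h1
  rw [zpow_mul, zpow_natCast, hg, one_zpow] at hk
  exact K.z_ne hk.symm

theorem not_s24 {g : C} (hg : K.π g = s24) : K.z ∉ zpowers g := by
  refine not_mem_of_pow K (n := 2) ?_ ?_
  · rw [hg]
    exact orderOf_eq_prime (by decide +kernel) (by decide +kernel)
  · rw [pow_two, K.sq_eq_one_iff, hg]
    exact ⟨by decide +kernel, by decide +kernel⟩

theorem not_s44 {g : C} (hg : K.π g = s44) : K.z ∉ zpowers g := by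
  refine not_mem_of_pow K (n := 4) ?_ ?_
  · rw [hg]
    exact orderOf_eq_prime_pow (p := 2) (n := 1) (by decide +kernel) (by decide +kernel)
  · have h1 : (g * g) * (g * g) = 1 := by
      rw [K.sq_eq_one_iff, map_mul, hg]
      exact ⟨by decide +kernel, by decide +kernel⟩
    rw [← h1, pow_four]

theorem not_s82 {g : C} (hg : K.π g = s82) : K.z ∉ zpowers g := by
  refine not_mem_of_pow K (n := 8) ?_ ?_
  · rw [hg]
    exact orderOf_eq_prime_pow (p := 2) (n := 2) (by decide +kernel) (by decide +kernel)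
  · have h1 : (g ^ 4) * (g ^ 4) = 1 := by
      rw [K.sq_eq_one_iff, map_pow, hg]
      exact ⟨by decide +kernel, by decide +kernel⟩
    rw [← h1]
    group

/-- The 2-elements of `2.A₁₁` with a power equal to `z`. -/
theorem cover_cases {a b c : C} (ha : K.π a = s22) (hb : K.π b = s42) (hc : K.π c = s423) {x : C} {j : ℕ}
    (hx : x ^ 2 ^ j = 1) (hz : K.z ∈ zpowers x) : IsConj x K.z ∨ IsConj x a ∨ IsConj x b ∨ IsConj x c := by
  have h1 : (K.π x) ^ 2 ^ j = 1 := by rw [← map_pow, hx, map_one]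
  obtain ⟨τ, hτ, h⟩ := exists_conj_cases (K.mem_alternating x) h1
  obtain ⟨d, rfl⟩ := K.exists_lift hτ
  have hconj : IsConj x (d * x * d⁻¹) := isConj_iff.2 ⟨d, rfl⟩
  have hz' : K.z ∈ zpowers (d * x * d⁻¹) := by
    obtain ⟨k, hk⟩ := mem_zpowers_iff.1 hz
    refine mem_zpowers_iff.2 ⟨k, ?_⟩
    rw [conj_zpow, hk, K.z_comm d, mul_inv_cancel_right]
  rw [← map_inv, ← map_mul, ← map_mul] at h
  rcases h with h | h | h | h | h | h | h
  · left
    rcases (K.ker _).1 h with h2 | h2
    · exfalso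
      rw [h2, zpowers_one_eq_bot, mem_bot] at hz'
      exact K.z_ne hz'
    · rw [← h2]
      exact hconj
  · right; left
    refine hconj.trans (conj_of_lift K (h.trans ha.symm) ?_)
    exact K.exists_conj_mul_z (by rw [h]; decide +kernel) (by rw [h]; decide +kernel)
  · exact absurd hz' (not_s24 K h)
  · right; right; left
    exact hconj.trans (conj_of_lift K (h.trans hb.symm) (conj_s42 K h))
  · right; right; right
    exact hconj.trans (conj_of_lift K (h.trans hc.symm) (conj_s423 K h))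
  · exact absurd hz' (not_s44 K h)
  · exact absurd hz' (not_s82 K h)

end cover

section grp

variable {G : Type*} [Group G] (L : MT 11 G)

/-- The 2-elements up to conjugacy. -/
theorem group_cases {a b c : centralizer ({L.t} : Set G)} (ha : L.K.π a = s22) (hb : L.K.π b = s42)
    (hc : L.K.π c = s423) {x : G} {j : ℕ} (hx : orderOf x = 2 ^ j) :
    IsConj x 1 ∨ IsConj x L.t ∨ IsConj x a ∨ IsConj x b ∨ IsConj x c := by
  cases j with
  | zero =>
    left
    rw [pow_zero, orderOf_eq_one_iff] at hx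
    rw [hx]
  | succ m =>
    right
    -- the involution
    have hs1 : x ^ 2 ^ m * x ^ 2 ^ m = 1 := by
      rw [← pow_add, ← two_mul, ← pow_succ', ← hx, pow_orderOf_eq_one]
    have hs2 : x ^ 2 ^ m ≠ 1 := by
      intro h
      have h1 := orderOf_dvd_of_pow_eq_one h
      rw [hx] at h1
      have h2 := Nat.le_of_dvd (by positivity) h1
      rw [pow_succ] at h2
      have : 0 < 2 ^ m := by positivity
      omega
    obtain ⟨g, hg⟩ := L.one _ hs1 hs2
    have ht : (g⁻¹ * x * g) ^ 2 ^ m = L.t := by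
      have h1 : (g⁻¹ * x * g) ^ 2 ^ m = g⁻¹ * x ^ 2 ^ m * g := by
        have := conj_pow (i := 2 ^ m) (a := g⁻¹) (b := x)
        rwa [inv_inv] at this
      rw [h1, ← hg]
      group
    have hconj : IsConj x (g⁻¹ * x * g) := isConj_iff.2 ⟨g⁻¹, by rw [inv_inv]⟩
    have hmem : g⁻¹ * x * g ∈ centralizer ({L.t} : Set G) := by
      rw [mem_centralizer_singleton_iff, ← ht]
      exact (Commute.self_pow _ _).eq
    obtain ⟨y, hy⟩ : ∃ y : centralizer ({L.t} : Set G), (y : G) = g⁻¹ * x * g := ⟨⟨_, hmem⟩, rfl⟩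
    rw [← hy] at hconj ht
    have hyz : L.K.z ∈ zpowers y := by
      refine mem_zpowers_iff.2 ⟨(2 ^ m : ℕ), ?_⟩
      apply Subtype.ext
      rw [zpow_natCast, Subgroup.coe_pow, ht, L.hz]
    have hyp : y ^ 2 ^ (m + 1) = 1 := by
      apply Subtype.ext
      rw [Subgroup.coe_pow, pow_succ, pow_mul, ht, pow_two, L.t_mul_t]
      rfl
    have key : ∀ w : centralizer ({L.t} : Set G), IsConj y w → IsConj x (w : G) := by
      intro w hw
      obtain ⟨d, hd⟩ := isConj_iff.1 hw
      refine hconj.trans (isConj_iff.2 ⟨(d : G), ?_⟩)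
      rw [← hd]
      rfl
    rcases cover_cases L.K ha hb hc hyp hyz with h | h | h | h
    · left
      rw [← L.hz]
      exact key _ h
    · exact Or.inr (Or.inl (key _ h))
    · exact Or.inr (Or.inr (Or.inl (key _ h)))
    · exact Or.inr (Or.inr (Or.inr (key _ h)))

theorem orderOf_of_pow {g : centralizer ({L.t} : Set G)} {m : ℕ} (h : g ^ 2 ^ m = L.K.z) :
    orderOf (g : G) = 2 ^ (m + 1) := by
  have h1 : (g : G) ^ 2 ^ m = L.t := by
    rw [← Subgroup.coe_pow, h, L.hz]
  refine orderOf_eq_prime_pow (p := 2) (n := m) ?_ ?_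
  · rw [h1]
    exact L.t_ne
  · rw [pow_succ, pow_mul, h1, pow_two, L.t_mul_t]

theorem not_conj {b c : centralizer ({L.t} : Set G)} (hb : L.K.π b = s42) (hc : L.K.π c = s423) :
    ¬ IsConj (b : G) (c : G) := by
  intro h
  obtain ⟨g, hg⟩ := isConj_iff.1 h
  have h1 : (b : G) ^ 4 = L.t := by rw [← Subgroup.coe_pow, pow_s42 L.K hb, L.hz]
  have h2 : (c : G) ^ 4 = L.t := by rw [← Subgroup.coe_pow, pow_s423 L.K hc, L.hz]
  have h3 : g * L.t * g⁻¹ = L.t := by
    have h4 : (g * b * g⁻¹) ^ 4 = g * (b : G) ^ 4 * g⁻¹ := conj_pow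
    rw [hg, h2, h1] at h4
    exact h4.symm
  have hmem : g ∈ centralizer ({L.t} : Set G) := by
    rw [mem_centralizer_singleton_iff]
    exact mul_inv_eq_iff_eq_mul.1 h3
  have h5 : (⟨g, hmem⟩ : centralizer ({L.t} : Set G)) * b * (⟨g, hmem⟩ : centralizer ({L.t} : Set G))⁻¹ = c :=
    Subtype.ext hg
  have h6 := congrArg L.K.π h5
  rw [map_mul, map_mul, map_inv, hb, hc] at h6
  have h7 : (s42 : P11).cycleType = (s423 : P11).cycleType := by
    rw [← h6, Perm.cycleType_conj]
  exact absurd h7 (by decide +kernel)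

/-- **Five classes of 2-elements.** -/
theorem card_two_classes (L : MT 11 G) :
    Nat.card {c : ConjClasses G // ∃ g : G, ConjClasses.mk g = c ∧ ∃ j : ℕ, orderOf g = 2 ^ j} = 5 := by
  classical
  obtain ⟨a, ha⟩ := L.K.exists_lift (σ := s22) (by rw [Perm.mem_alternatingGroup]; decide +kernel)
  obtain ⟨b, hb⟩ := L.K.exists_lift (σ := s42) (by rw [Perm.mem_alternatingGroup]; decide +kernel)
  obtain ⟨c, hc⟩ := L.K.exists_lift (σ := s423) (by rw [Perm.mem_alternatingGroup]; decide +kernel)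
  have o1 : orderOf (1 : G) = 2 ^ 0 := by rw [orderOf_one, pow_zero]
  have ot : orderOf L.t = 2 ^ 1 := by
    rw [pow_one]
    exact orderOf_eq_prime (by rw [pow_two, L.t_mul_t]) L.t_ne
  have oa : orderOf (a : G) = 2 ^ 2 := orderOf_of_pow L (m := 1) (by rw [pow_one]; exact pow_s22 L.K ha)
  have ob : orderOf (b : G) = 2 ^ 3 := orderOf_of_pow L (m := 2) (pow_s42 L.K hb)
  have oc : orderOf (c : G) = 2 ^ 3 := orderOf_of_pow L (m := 2) (pow_s423 L.K hc)
  have hne : ∀ {x y : G}, orderOf x ≠ orderOf y → ConjClasses.mk x ≠ ConjClasses.mk y := by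
    intro x y hxy h
    apply hxy
    obtain ⟨g, hg⟩ := isConj_iff.1 (ConjClasses.mk_eq_mk_iff_isConj.1 h)
    rw [← hg]
    have h1 : g * x * g⁻¹ = MulAut.conj g x := by rw [MulAut.conj_apply]
    rw [h1]
    exact ((MulAut.conj g).orderOf_eq x).symm
  have hbc : ConjClasses.mk (b : G) ≠ ConjClasses.mk (c : G) := fun h =>
    not_conj L hb hc (ConjClasses.mk_eq_mk_iff_isConj.1 h)
  let S : Finset (ConjClasses G) := {ConjClasses.mk 1, ConjClasses.mk L.t, ConjClasses.mk (a : G),
    ConjClasses.mk (b : G), ConjClasses.mk (c : G)}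
  have hS : S.card = 5 := by
    have e1 : ConjClasses.mk (1 : G) ≠ ConjClasses.mk L.t := hne (by rw [o1, ot]; norm_num)
    have e2 : ConjClasses.mk (1 : G) ≠ ConjClasses.mk (a : G) := hne (by rw [o1, oa]; norm_num)
    have e3 : ConjClasses.mk (1 : G) ≠ ConjClasses.mk (b : G) := hne (by rw [o1, ob]; norm_num)
    have e4 : ConjClasses.mk (1 : G) ≠ ConjClasses.mk (c : G) := hne (by rw [o1, oc]; norm_num)
    have e5 : ConjClasses.mk L.t ≠ ConjClasses.mk (a : G) := hne (by rw [ot, oa]; norm_num)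
    have e6 : ConjClasses.mk L.t ≠ ConjClasses.mk (b : G) := hne (by rw [ot, ob]; norm_num)
    have e7 : ConjClasses.mk L.t ≠ ConjClasses.mk (c : G) := hne (by rw [ot, oc]; norm_num)
    have e8 : ConjClasses.mk (a : G) ≠ ConjClasses.mk (b : G) := hne (by rw [oa, ob]; norm_num)
    have e9 : ConjClasses.mk (a : G) ≠ ConjClasses.mk (c : G) := hne (by rw [oa, oc]; norm_num)
    rw [Finset.card_insert_of_notMem, Finset.card_insert_of_notMem, Finset.card_insert_of_notMem,
      Finset.card_insert_of_notMem, Finset.card_singleton]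
    · simpa using hbc
    · simp only [Finset.mem_insert, Finset.mem_singleton, not_or]
      exact ⟨e8, e9⟩
    · simp only [Finset.mem_insert, Finset.mem_singleton, not_or]
      exact ⟨e5, e6, e7⟩
    · simp only [Finset.mem_insert, Finset.mem_singleton, not_or]
      exact ⟨e1, e2, e3, e4⟩
  rw [← hS]
  refine Nat.subtype_card S fun q => ?_
  simp only [S, Finset.mem_insert, Finset.mem_singleton]
  constructor
  · rintro (rfl | rfl | rfl | rfl | rfl)
    · exact ⟨_, rfl, _, o1⟩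
    · exact ⟨_, rfl, _, ot⟩
    · exact ⟨_, rfl, _, oa⟩
    · exact ⟨_, rfl, _, ob⟩
    · exact ⟨_, rfl, _, oc⟩
  · rintro ⟨g, rfl, j, hj⟩
    rcases group_cases L ha hb hc hj with h | h | h | h | h
    · exact Or.inl (ConjClasses.mk_eq_mk_iff_isConj.2 h)
    · exact Or.inr (Or.inl (ConjClasses.mk_eq_mk_iff_isConj.2 h))
    · exact Or.inr (Or.inr (Or.inl (ConjClasses.mk_eq_mk_iff_isConj.2 h)))
    · exact Or.inr (Or.inr (Or.inr (Or.inl (ConjClasses.mk_eq_mk_iff_isConj.2 h))))
    · exact Or.inr (Or.inr (Or.inr (Or.inr (ConjClasses.mk_eq_mk_iff_isConj.2 h))))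

/-- The Sylow 2-subgroups are not abelian. -/
theorem exists_sylow (L : MT 11 G) : ∃ P : Sylow 2 G, ¬ IsMulCommutative P := by
  obtain ⟨a, ha⟩ := L.K.exists_lift (σ := s22) (by rw [Perm.mem_alternatingGroup]; decide +kernel)
  obtain ⟨w, hw⟩ := L.K.exists_lift (σ := swap 0 2 * swap 1 3) (by rw [Perm.mem_alternatingGroup]; decide +kernel)
  have hwa : w * a = a * w * L.K.z := L.K.anticomm (by decide) (by decide) (by decide) (by decide) (by decide)
    (by decide) ha hw
  have ha2 : a ^ 2 = L.K.z := pow_s22 L.K ha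
  have hw2 : w ^ 2 = L.K.z := by
    rw [pow_two]
    exact L.K.dbl 0 2 1 3 (by decide) (by decide) (by decide) (by decide) (by decide) (by decide) _ hw
  have hpg : ∀ {x : centralizer ({L.t} : Set G)}, x ^ 2 = L.K.z → IsPGroup 2 (zpowers x) := by
    intro x hx
    have h4 : x ^ 2 ^ 2 = 1 := by
      rw [show (2 : ℕ) ^ 2 = 2 * 2 from rfl, pow_mul, hx, pow_two, L.K.z_mul_z]
    rintro ⟨y, hy⟩
    obtain ⟨k, rfl⟩ := mem_zpowers_iff.1 hy
    refine ⟨2, ?_⟩
    apply Subtype.ext
    rw [Subgroup.coe_pow, ← zpow_natCast, ← zpow_mul, mul_comm, zpow_mul, zpow_natCast, h4, one_zpow]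
    rfl
  have hconj : w * a * w⁻¹ = a⁻¹ := by
    have h1 : a⁻¹ = a * L.K.z := by
      rw [inv_eq_iff_mul_eq_one, ← mul_assoc, ← pow_two, ha2, L.K.z_mul_z]
    rw [hwa, h1, mul_assoc a, L.K.z_comm w, mul_assoc, mul_assoc, mul_inv_cancel, mul_one]
  have hnorm : zpowers w ≤ normalizer ((zpowers a : Subgroup _) : Set (centralizer ({L.t} : Set G))) := by
    rw [zpowers_le, mem_normalizer_iff]
    have hconj' : w⁻¹ * a * w = a⁻¹ := by
      have h1 : w⁻¹ * (w * a * w⁻¹)⁻¹ * w = w⁻¹ * (a⁻¹)⁻¹ * w := by rw [hconj]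
      rw [inv_inv] at h1
      rw [← h1]
      group
    intro h
    constructor
    · intro hh
      obtain ⟨k, rfl⟩ := mem_zpowers_iff.1 hh
      rw [← conj_zpow, hconj]
      exact zpow_mem (inv_mem (mem_zpowers a)) k
    · intro hh
      obtain ⟨k, hk⟩ := mem_zpowers_iff.1 hh
      have h1 : h = (w⁻¹ * a * w) ^ k := by
        have h2 := conj_zpow (i := k) (a := w⁻¹) (b := a)
        rw [inv_inv, hk] at h2
        rw [h2]
        group
      rw [h1, hconj']
      exact zpow_mem (inv_mem (mem_zpowers a)) k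
  have hQ : IsPGroup 2 (zpowers w ⊔ zpowers a : Subgroup (centralizer ({L.t} : Set G))) :=
    IsPGroup.to_sup_of_normal_right' (hpg hw2) (hpg ha2) hnorm
  obtain ⟨P, hP⟩ := (hQ.map (centralizer ({L.t} : Set G)).subtype).exists_le_sylow
  refine ⟨P, fun hcomm => ?_⟩
  have hwP : (w : G) ∈ P := hP ⟨w, mem_sup_left (mem_zpowers w), rfl⟩
  have haP : (a : G) ∈ P := hP ⟨a, mem_sup_right (mem_zpowers a), rfl⟩
  have h1 : (w : G) * a = a * w := by
    have := hcomm.is_comm.comm (⟨w, hwP⟩ : P) ⟨a, haP⟩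
    exact congrArg Subtype.val this
  have h2 : w * a = a * w := Subtype.ext h1
  rw [hwa] at h2
  exact L.K.mul_z_ne _ h2

end grp

end Cfsg.Agent.H61.EB
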