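import Cfsg.Agent.H684.EB.Base
import Cfsg.Agent.TypeM.OutLyFin
import Cfsg.Agent.H61.EB.LyCount

/-!
# S4522, row Ly

`OddThm` is the statement [T05] (`evenS_of_odd`) of TEAM EB.
-/

set_option autoImplicit false

namespace Cfsg.Agent.H61.EB

open Cfsg Subgroup Cfsg.Agent.H684.EB Cfsg.Agent.H610.EB Cfsg.Agent.Characters.Core
open scoped ComplexConjugate

universe u

/-- [T05] (ODD) -/
def OddThm : Prop := ∀ {S : Type u} [Group S] [Fintype S] (P : Sylow 2 S), ¬ IsMulCommutative P →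
  Odd (Nat.card {c : ConjClasses S // ∃ g : S, ConjClasses.mk g = c ∧ ∃ j : ℕ, orderOf g = 2 ^ j}) →
  ∀ k : ℕ, IsK S k → ∀ M : Ideal AlgInt, IsPModular 2 M → ∃ χ ∈ principalBlock M S,
    Even (charDegree (χ : S → ℂ)) ∧ (∀ g : S, (χ : S → ℂ) (g ^ k) = (χ : S → ℂ) g) ∧
      (χ : S → ℂ) ≠ fun _ => 1

/-- The number of classes of 2-elements of the Lyons group is odd. -/
theorem odd_ly {S : Type u} [Group S] (h : Cfsg.Spor.IsoLy S) :
    Odd (Nat.card {c : ConjClasses S // ∃ g : S, ConjClasses.mk g = c ∧ ∃ j : ℕ, orderOf g = 2 ^ j}) := by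
  obtain ⟨-, -, -, ⟨L⟩⟩ := TypeM.FactsLy.facts h
  rw [card_two_classes L]
  decide

theorem exists_sylow_ly {S : Type u} [Group S] (h : Cfsg.Spor.IsoLy S) : ∃ P : Sylow 2 S, ¬ IsMulCommutative P := by
  obtain ⟨-, -, -, ⟨L⟩⟩ := TypeM.FactsLy.facts h
  exact exists_sylow L

/-- **The row Ly of S4522.** -/
theorem evenB_ly (odd : OddThm.{u}) {S : Type u} [Group S] (h : Cfsg.Spor.IsoLy S) : EvenB S := by
  rintro G _ _ N hN _ ⟨e⟩ hC - k hk M hM
  -- all automorphisms are inner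
  have hNt : N = ⊤ := by
    rw [eq_top_iff]
    intro g _
    let α : MulAut S := (e.trans (MulAut.conjNormal g : MulAut N)).trans e.symm
    have hα : ∀ x : S, (e (α x) : G) = g * e x * g⁻¹ := by
      intro x
      show ((e (e.symm ((MulAut.conjNormal g : MulAut N) (e x))) : N) : G) = _
      rw [MulEquiv.apply_symm_apply, MulAut.conjNormal_apply]
    obtain ⟨s, hs⟩ := TypeM.OutLyFin.inner h α
    have h1 : (e s : G)⁻¹ * g ∈ centralizer (N : Set G) := by
      rw [mem_centralizer_iff]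
      intro n hn
      obtain ⟨x, hx⟩ := e.surjective ⟨n, hn⟩
      have h2 := hα x
      rw [← hs, MulAut.conj_apply, map_mul, map_mul, map_inv, hx] at h2
      have h3 : (e s : G) * n * (e s : G)⁻¹ = g * n * g⁻¹ := h2
      have h4 : n = (e s : G)⁻¹ * ((e s : G) * n * (e s : G)⁻¹) * e s := by group
      rw [h3] at h4
      calc n * ((e s : G)⁻¹ * g) = (e s : G)⁻¹ * (g * n * g⁻¹) * e s * ((e s : G)⁻¹ * g) := by rw [← h4]
        _ = (e s : G)⁻¹ * g * n := by group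
    rw [hC, mem_bot] at h1
    rw [← inv_mul_eq_one.1 h1]
    exact (e s).2
  subst hNt
  have hG : Cfsg.Spor.IsoLy G := by
    obtain ⟨f⟩ := h
    exact ⟨(topEquiv.symm.trans e.symm).trans f⟩
  obtain ⟨P, hP⟩ := exists_sylow_ly hG
  obtain ⟨χ, hχ, hev, hfix, hne⟩ := odd P hP (odd_ly hG) k hk M hM
  refine ⟨χ, hχ, hev, hfix, ?_⟩
  have h1 : classInner (χ : G → ℂ) (fun _ => (1 : ℂ)) = 0 :=
    classInner_irr_ne χ.2 Cfsg.Agent.Blocks.Basic.isIrrCharacter_one hne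
  rw [← h1]
  unfold classInner
  rw [Nat.card_congr (topEquiv : (⊤ : Subgroup G) ≃* G).toEquiv]
  congr 1
  exact Fintype.sum_equiv (topEquiv : (⊤ : Subgroup G) ≃* G).toEquiv _ _ (fun _ => rfl)

theorem evenJ_ly (odd : OddThm.{u}) {S : Type u} [Group S] (h : Cfsg.Spor.IsoLy S) : EvenJ S := by
  refine evenJ_of_inner (fun α => ?_) (evenB_ly odd h)
  obtain ⟨s, hs⟩ := TypeM.OutLyFin.inner h (α : MulAut S)
  refine ⟨0, s, fun x => ?_⟩
  rw [pow_zero, pow_one, ← MulAut.conj_apply, hs]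

end Cfsg.Agent.H61.EB
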